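import Cfsg.Agent.H964.AltMod.Mat
import Cfsg.Agent.H887.OmegaBridge
import Cfsg.Agent.ClassicalGeometry.Reflection
import Cfsg.Agent.StandardComponent.AltAut

/-!
# The natural module of the alternating group with an invariant quadratic form (all characteristics)

`N : NatM ρ w`, `|α| ≥ 8`, `Q` an invariant nondegenerate quadratic form (`Frm`):

* `Frm.q0`, `Frm.Q_w`, `Frm.q0_ne`, `Frm.polar_w` : `Q (w i j) = q0 ≠ 0`, the Gram matrix;
* `Frm.D v g h = q0⁻¹ * B(v, w g h)` ("`v_g - v_h`"), `Frm.D_w`, `Frm.D_ext`, ...;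
* `Frm.unique` : the vectors `w` are unique up to a scalar;
* `Frm.semi` : an isometry inducing the permutation `σ` maps `w i j` to `e • w (σ i) (σ j)`, `e ^ 2 = 1`;
* `exists_perm` : every element of a group in the residual class with core `P ≃* Alt(Fin c)` is such an isometry.
-/

set_option autoImplicit false
set_option linter.unusedSectionVars false

namespace Cfsg.Agent.H212.NM

open Equiv Equiv.Perm QuadraticMap Cfsg.Agent.H964.AltMod
open scoped MatrixGroups Matrix

universe u

section abs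

variable {F : Type*} [Field F] {V : Type*} [AddCommGroup V] [Module F V] [FiniteDimensional F V]
variable {α : Type*} [Fintype α] [DecidableEq α]

/-- natural module with an invariant nondegenerate quadratic form -/
structure Frm (ρ : Representation F (alternatingGroup α) V) (w : α → α → V) (Q : QuadraticForm F V) : Prop where
  nat : NatM ρ w
  card : 8 ≤ Fintype.card α
  inv : ∀ g v, Q (ρ g v) = Q v
  nondeg : ∀ v, (∀ u, polar Q v u = 0) → v = 0

/-- the Kronecker symbol -/
def dl (F : Type*) [Field F] {α : Type*} [DecidableEq α] (a b : α) : F := if a = b then 1 else 0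

theorem dl_self (a : α) : dl F a a = 1 := if_pos rfl

theorem dl_ne {a b : α} (h : a ≠ b) : dl F a b = 0 := if_neg h

theorem dl_ne' {a b : α} (h : b ≠ a) : dl F a b = 0 := if_neg h.symm

theorem inv_app (σ : Perm α) (x : α) : σ⁻¹ (σ x) = x := σ.symm_apply_apply x

theorem app_inv (σ : Perm α) (x : α) : σ (σ⁻¹ x) = x := σ.apply_symm_apply x

/-- a point outside a list -/
theorem pt (h8 : 8 ≤ Fintype.card α) (l : List α) (hl : l.length < 8) : ∃ x, x ∉ l :=
  exists_notMem (by omega)

namespace Frm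

variable {ρ : Representation F (alternatingGroup α) V} {w : α → α → V} {Q : QuadraticForm F V} (M : Frm ρ w Q)

include M

theorem polar_act (g : alternatingGroup α) (u v : V) : polar Q (ρ g u) (ρ g v) = polar Q u v := by
  rw [polar, polar, ← map_add, M.inv, M.inv, M.inv]

theorem exists_q : ∃ q : F, ∀ i j, i ≠ j → Q (w i j) = q := by
  obtain ⟨x, hx⟩ := pt M.card ([] : List α) (by simp)
  obtain ⟨y, hy⟩ := pt M.card [x] (by simp)
  simp only [List.mem_cons, List.not_mem_nil, or_false] at hy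
  refine ⟨Q (w x y), fun i j hij => ?_⟩
  obtain ⟨g, h1, h2⟩ := exists_g M.card (Ne.symm hy) hij
  rw [← M.inv g (w x y), M.nat.act, h1, h2]

/-- the common value of `Q` -/
noncomputable def q0 : F := M.exists_q.choose

theorem Q_w {i j : α} (h : i ≠ j) : Q (w i j) = M.q0 := M.exists_q.choose_spec i j h

theorem polar_adj {i j k : α} (hij : i ≠ j) (hjk : j ≠ k) (hik : i ≠ k) : polar Q (w i j) (w j k) = -M.q0 := by
  rw [polar, M.nat.tri, M.Q_w hij, M.Q_w hjk, M.Q_w hik]
  ring

theorem polar_o {o p g : α} (hp : p ≠ o) (hg : g ≠ o) : polar Q (w p o) (w g o) = M.q0 * (1 + dl F p g) := by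
  by_cases h : p = g
  · subst h
    rw [dl_self, QuadraticMap.polar_self, M.Q_w hp, two_smul]
    ring
  · rw [dl_ne h, ← neg_neg (w g o), ← M.nat.anti, polar_neg_right, M.polar_adj hp (Ne.symm hg) h]
    ring

theorem w_sub (p q o : α) : w p q = w p o - w q o := by
  rw [← M.nat.tri p o q, M.nat.anti q o, sub_eq_add_neg]

/-- **the Gram matrix** -/
theorem polar_w (p q g h : α) :
    polar Q (w p q) (w g h) = M.q0 * (dl F p g - dl F p h - dl F q g + dl F q h) := by
  obtain ⟨o, ho⟩ := pt M.card [p, q, g, h] (by simp)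
  simp only [List.mem_cons, List.not_mem_nil, or_false, not_or] at ho
  obtain ⟨h1, h2, h3, h4⟩ := ho
  rw [M.w_sub p q o, M.w_sub g h o, polar_sub_left, polar_sub_right, polar_sub_right,
    M.polar_o (Ne.symm h1) (Ne.symm h3), M.polar_o (Ne.symm h1) (Ne.symm h4), M.polar_o (Ne.symm h2) (Ne.symm h3),
    M.polar_o (Ne.symm h2) (Ne.symm h4)]
  ring

/-- vanishing on the `w g h` -/
theorem eq_zero_of {v : V} (h : ∀ g h, polar Q v (w g h) = 0) : v = 0 := by
  apply M.nondeg
  intro u
  have hu : u ∈ Submodule.span F (Set.range fun p : α × α => w p.1 p.2) := by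
    rw [M.nat.span]
    exact Submodule.mem_top
  refine Submodule.span_induction (p := fun u _ => polar Q v u = 0) ?_ ?_ ?_ ?_ hu
  · rintro _ ⟨p, rfl⟩
    exact h _ _
  · rw [polar_zero_right]
  · intro x y _ _ hx hy
    rw [polar_add_right, hx, hy, add_zero]
  · intro a x _ hx
    rw [polar_smul_right, hx, smul_zero]

theorem q0_ne : M.q0 ≠ 0 := by
  intro h0
  obtain ⟨i, j, hij⟩ := M.nat.ne
  apply hij
  apply M.eq_zero_of
  intro g h
  rw [M.polar_w, h0, zero_mul]

/-- "`v_g - v_h`" -/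
noncomputable def D (v : V) (g h : α) : F := M.q0⁻¹ * polar Q v (w g h)

theorem D_w (p q g h : α) : M.D (w p q) g h = dl F p g - dl F p h - dl F q g + dl F q h := by
  unfold D
  rw [M.polar_w, ← mul_assoc, inv_mul_cancel₀ M.q0_ne, one_mul]

theorem polar_eq (v : V) (g h : α) : polar Q v (w g h) = M.q0 * M.D v g h := by
  unfold D
  rw [← mul_assoc, mul_inv_cancel₀ M.q0_ne, one_mul]

theorem D_add (u v : V) (g h : α) : M.D (u + v) g h = M.D u g h + M.D v g h := by
  unfold D
  rw [polar_add_left, mul_add]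

theorem D_sub (u v : V) (g h : α) : M.D (u - v) g h = M.D u g h - M.D v g h := by
  unfold D
  rw [polar_sub_left, mul_sub]

theorem D_neg (v : V) (g h : α) : M.D (-v) g h = -M.D v g h := by
  unfold D
  rw [polar_neg_left, mul_neg]

theorem D_zero (g h : α) : M.D 0 g h = 0 := by
  unfold D
  rw [polar_zero_left, mul_zero]

theorem D_smul (a : F) (v : V) (g h : α) : M.D (a • v) g h = a * M.D v g h := by
  unfold D
  rw [polar_smul_left, smul_eq_mul]
  ring

theorem D_sum {β : Type*} (s : Finset β) (f : β → V) (g h : α) : M.D (∑ i ∈ s, f i) g h = ∑ i ∈ s, M.D (f i) g h := by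
  classical
  induction s using Finset.induction_on with
  | empty => rw [Finset.sum_empty, Finset.sum_empty, M.D_zero]
  | insert a s ha ih => rw [Finset.sum_insert ha, Finset.sum_insert ha, M.D_add, ih]

theorem D_tri (v : V) (g h k : α) : M.D v g h + M.D v h k = M.D v g k := by
  unfold D
  rw [← mul_add, ← polar_add_right, M.nat.tri]

theorem D_anti (v : V) (g h : α) : M.D v h g = -M.D v g h := by
  unfold D
  rw [M.nat.anti g h, polar_neg_right, mul_neg]

theorem D_self (v : V) (g : α) : M.D v g g = 0 := by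
  unfold D
  rw [M.nat.self, polar_zero_right, mul_zero]

theorem D_ext {u v : V} (o : α) (h : ∀ g, M.D u g o = M.D v g o) : u = v := by
  rw [← sub_eq_zero]
  apply M.eq_zero_of
  intro g k
  rw [M.polar_eq, ← M.D_tri _ g o k, M.D_anti _ k o, M.D_sub, M.D_sub, h, h]
  ring

theorem D_act (g : alternatingGroup α) (v : V) (a b : α) :
    M.D (ρ g v) ((g : Perm α) a) ((g : Perm α) b) = M.D v a b := by
  unfold D
  rw [← M.nat.act, M.polar_act]

theorem w_ne_zero {i j : α} (h : i ≠ j) : w i j ≠ 0 := M.nat.ne_zero M.card h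

/-- **uniqueness of the vectors `w`** -/
theorem unique {w' : α → α → V} (N' : NatM ρ w') : ∃ t : F, ∀ i j, w' i j = t • w i j := by
  -- (1)
  have h1 : ∀ x y a b, x ≠ y → a ≠ x → a ≠ y → b ≠ x → b ≠ y → M.D (w' x y) a b = 0 := by
    intro x y a b hxy hax hay hbx hby
    obtain ⟨z, hz⟩ := pt M.card [x, y, a, b] (by simp)
    simp only [List.mem_cons, List.not_mem_nil, or_false, not_or] at hz
    obtain ⟨hz1, hz2, hz3, hz4⟩ := hz
    obtain ⟨o, ho⟩ := pt M.card [x, y, a, b, z] (by simp)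
    simp only [List.mem_cons, List.not_mem_nil, or_false, not_or] at ho
    obtain ⟨ho1, ho2, ho3, ho4, ho5⟩ := ho
    have e1 := cyc_fst (Ne.symm hxy) (Ne.symm hz1) (Ne.symm hz2)
    have e2 : ∀ t, t ≠ y → t ≠ x → t ≠ z → ((cyc y x z (Ne.symm hxy) (Ne.symm hz1) : alternatingGroup α) : Perm α) t = t :=
      fun t h1 h2 h3 => cyc_of_ne (Ne.symm hxy) (Ne.symm hz1) h1 h2 h3
    set g : alternatingGroup α := cyc y x z (Ne.symm hxy) (Ne.symm hz1) with hg
    have h2 : w' x y = ρ g (w' y o) - w' y o := by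
      rw [N'.act, e1, e2 o ho2 ho1 ho5, ← N'.tri x y o]
      abel
    have h3 := M.D_act g (w' y o) a b
    rw [e2 a hay hax (Ne.symm hz3), e2 b hby hbx (Ne.symm hz4)] at h3
    rw [h2, M.D_sub, h3, sub_self]
  -- (2)
  have h2 : ∀ x y a, x ≠ y → a ≠ x → a ≠ y → M.D (w' x y) y a = -M.D (w' x y) x a := by
    intro x y a hxy hax hay
    obtain ⟨z, hz⟩ := pt M.card [x, y, a] (by simp)
    simp only [List.mem_cons, List.not_mem_nil, or_false, not_or] at hz
    obtain ⟨hz1, hz2, hz3⟩ := hz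
    obtain ⟨o, ho⟩ := pt M.card [x, y, a, z] (by simp)
    simp only [List.mem_cons, List.not_mem_nil, or_false, not_or] at ho
    obtain ⟨ho1, ho2, ho3, ho5⟩ := ho
    have e1 := cyc_fst (Ne.symm hxy) (Ne.symm hz1) (Ne.symm hz2)
    have e3 := cyc_snd (Ne.symm hxy) (Ne.symm hz1) (Ne.symm hz2)
    have e4 := cyc_thd (Ne.symm hxy) (Ne.symm hz1)
    have e2 : ∀ t, t ≠ y → t ≠ x → t ≠ z → ((cyc y x z (Ne.symm hxy) (Ne.symm hz1) : alternatingGroup α) : Perm α) t = t :=
      fun t h1 h2 h3 => cyc_of_ne (Ne.symm hxy) (Ne.symm hz1) h1 h2 h3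
    set g : alternatingGroup α := cyc y x z (Ne.symm hxy) (Ne.symm hz1) with hg
    have h2 : w' x y = ρ g (w' y o) - w' y o := by
      rw [N'.act, e1, e2 o ho2 ho1 ho5, ← N'.tri x y o]
      abel
    have h3 := h1 x y z a hxy hz1 hz2 hax hay
    have h4 := M.D_act g (w' y o) y a
    have h5 := M.D_act g (w' y o) x a
    have h6 := M.D_act g (w' y o) z a
    rw [e2 a hay hax (Ne.symm hz3)] at h4 h5 h6
    rw [e1] at h4
    rw [e3] at h5
    rw [e4] at h6
    rw [h2, M.D_sub] at h3
    rw [h2, M.D_sub, M.D_sub, h6, h4]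
    rw [h5] at h3
    have h7 : M.D (w' y o) x a = M.D (w' y o) z a := sub_eq_zero.1 h3
    rw [h7]
    ring
  -- (3)
  have h3 : ∀ x y, x ≠ y → ∃ t : F, w' x y = t • w x y := by
    intro x y hxy
    obtain ⟨a, ha⟩ := pt M.card [x, y] (by simp)
    simp only [List.mem_cons, List.not_mem_nil, or_false, not_or] at ha
    refine ⟨M.D (w' x y) x a, M.D_ext a fun g => ?_⟩
    rw [M.D_smul, M.D_w, dl_ne (Ne.symm ha.1), dl_ne (Ne.symm ha.2)]
    by_cases hgx : g = x
    · subst hgx
      rw [dl_self, dl_ne (Ne.symm hxy)]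
      ring
    by_cases hgy : g = y
    · subst hgy
      rw [dl_self, dl_ne hxy, h2 x g a hxy ha.1 ha.2]
      ring
    · rw [dl_ne (Ne.symm hgx), dl_ne (Ne.symm hgy), h1 x y g a hxy hgx hgy ha.1 ha.2]
      ring
  -- (4)
  have h4 : ∀ (t : F) (x y z : α), x ≠ y → y ≠ z → x ≠ z → w' x y = t • w x y → w' x z = t • w x z ∧ w' y z = t • w y z := by
    intro t x y z hxy hyz hxz h
    obtain ⟨t2, ht2⟩ := h3 y z hyz
    obtain ⟨t3, ht3⟩ := h3 x z hxz
    obtain ⟨o, ho⟩ := pt M.card [x, y, z] (by simp)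
    simp only [List.mem_cons, List.not_mem_nil, or_false, not_or] at ho
    obtain ⟨ho1, ho2, ho3⟩ := ho
    have h5 := N'.tri x y z
    rw [h, ht2, ht3] at h5
    have h6 := congrArg (fun v => M.D v x o) h5
    have h7 := congrArg (fun v => M.D v z o) h5
    simp only [M.D_add, M.D_smul, M.D_w, dl_self, dl_ne hxz, dl_ne hyz, dl_ne (Ne.symm hxy),
      dl_ne (Ne.symm hxz), dl_ne (Ne.symm ho1), dl_ne (Ne.symm ho2), dl_ne (Ne.symm ho3)] at h6 h7
    have h8 : t = t3 := by linear_combination h6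
    have h9 : t2 = t3 := by linear_combination -h7
    rw [ht3, ht2, ← h8, h9, ← h8]
    exact ⟨rfl, rfl⟩
  have hsym : ∀ (t : F) (x y : α), w' x y = t • w x y → w' y x = t • w y x := by
    intro t x y h
    rw [N'.anti x y, M.nat.anti x y, h, smul_neg]
  obtain ⟨x0, hx0⟩ := pt M.card ([] : List α) (by simp)
  obtain ⟨y0, hy0⟩ := pt M.card [x0] (by simp)
  simp only [List.mem_cons, List.not_mem_nil, or_false] at hy0
  obtain ⟨t, ht⟩ := h3 x0 y0 (Ne.symm hy0)
  refine ⟨t, fun x y => ?_⟩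
  by_cases hxy : x = y
  · subst hxy
    rw [N'.self, M.nat.self, smul_zero]
  obtain ⟨z, hz⟩ := pt M.card [x0, y0, x, y] (by simp)
  simp only [List.mem_cons, List.not_mem_nil, or_false, not_or] at hz
  obtain ⟨hz1, hz2, hz3, hz4⟩ := hz
  have h5 : w' x0 z = t • w x0 z := (h4 t x0 y0 z (Ne.symm hy0) (Ne.symm hz2) (Ne.symm hz1) ht).1
  have h6 : w' x z = t • w x z := by
    by_cases hx : x = x0
    · rw [hx]; exact h5
    · exact hsym t z x (h4 t x0 z x (Ne.symm hz1) hz3 (Ne.symm hx) h5).2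
  exact (h4 t x z y (Ne.symm hz3) hz4 hxy h6).1

/-- **an isometry normalising the alternating group** -/
theorem semi {a : V →ₗ[F] V} (ha : ∀ v, Q (a v) = Q v) (hinj : Function.Surjective a) {σ : Perm α}
    (hσ : ∀ (g : alternatingGroup α) v, a (ρ g v) = ρ (MulAut.conjNormal σ g) (a v)) :
    ∃ e : F, e ^ 2 = 1 ∧ ∀ i j, a (w i j) = e • w (σ i) (σ j) := by
  have hN : NatM ρ fun i j => a (w (σ⁻¹ i) (σ⁻¹ j)) := by
    refine ⟨fun i j => ?_, fun i j k => ?_, fun g i j => ?_, ?_, ?_⟩
    · rw [M.nat.anti, map_neg]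
    · rw [← map_add, M.nat.tri]
    · have h1 := hσ (MulAut.conjNormal σ⁻¹ g) (w (σ⁻¹ i) (σ⁻¹ j))
      rw [map_inv, MulAut.apply_inv_self, M.nat.act] at h1
      rw [← h1]
      have h2 : ((((MulAut.conjNormal σ)⁻¹ g : alternatingGroup α)) : Perm α) = σ⁻¹ * g * σ := by
        rw [← map_inv]
        exact (MulAut.conjNormal_apply (H := alternatingGroup α) σ⁻¹ g).trans (by rw [inv_inv])
      rw [h2]
      congr 1
      simp only [Perm.mul_apply, app_inv]
    · rw [eq_top_iff]
      intro v _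
      obtain ⟨u, rfl⟩ := hinj v
      have hu : u ∈ Submodule.span F (Set.range fun p : α × α => w p.1 p.2) := by
        rw [M.nat.span]
        exact Submodule.mem_top
      refine Submodule.span_induction (p := fun u _ => a u ∈ _) ?_ ?_ ?_ ?_ hu
      · rintro _ ⟨p, rfl⟩
        apply Submodule.subset_span
        refine ⟨(σ p.1, σ p.2), ?_⟩
        simp only [inv_app]
      · rw [map_zero]
        exact Submodule.zero_mem _
      · intro x y _ _ hx hy
        rw [map_add]
        exact Submodule.add_mem _ hx hy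
      · intro t x _ hx
        rw [map_smul]
        exact Submodule.smul_mem _ _ hx
    · obtain ⟨x, hx⟩ := pt M.card ([] : List α) (by simp)
      obtain ⟨y, hy⟩ := pt M.card [x] (by simp)
      simp only [List.mem_cons, List.not_mem_nil, or_false] at hy
      refine ⟨σ x, σ y, fun h0 => ?_⟩
      simp only [inv_app] at h0
      have h1 := ha (w x y)
      rw [h0, map_zero, M.Q_w (Ne.symm hy)] at h1
      exact M.q0_ne h1.symm
  obtain ⟨e, he⟩ := M.unique hN
  have he' : ∀ i j, a (w i j) = e • w (σ i) (σ j) := by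
    intro i j
    have := he (σ i) (σ j)
    simp only [inv_app] at this
    exact this
  refine ⟨e, ?_, he'⟩
  obtain ⟨x, hx⟩ := pt M.card ([] : List α) (by simp)
  obtain ⟨y, hy⟩ := pt M.card [x] (by simp)
  simp only [List.mem_cons, List.not_mem_nil, or_false] at hy
  have h1 := ha (w x y)
  rw [he', QuadraticMap.map_smul, M.Q_w (Ne.symm hy), M.Q_w (σ.injective.ne (Ne.symm hy)), smul_eq_mul] at h1
  have h2 : (e * e - 1) * M.q0 = 0 := by linear_combination h1
  rcases mul_eq_zero.1 h2 with h3 | h3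
  · linear_combination h3
  · exact absurd h3 M.q0_ne

end Frm

end abs

section mat

open Cfsg.Geo Cfsg.Agent.H887.OmegaBridge

variable {ι : Type} [Fintype ι] [DecidableEq ι] {F : Type u} [Field F] {H P : Subgroup (GL ι F)}
variable {c : ℕ} {φ : P ≃* alternatingGroup (Fin c)} {w : Fin c → Fin c → (ι → F)}

theorem frm (N : NatM (rep φ) w) (hc : 8 ≤ c) {Qf : (ι → F) → F} (hQ : IsNondegenerateQuadraticForm Qf)
    (hP : P ≤ Cfsg.isometryGroup F Qf) : Frm (rep φ) w (qf Qf hQ) where
  nat := N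
  card := by rwa [Fintype.card_fin]
  inv := fun g v => by
    rw [rep_apply]
    exact mem_isometryGroup.1 (hP (φ.symm g).2) v
  nondeg := nondeg_qf Qf hQ

/-- conjugation by an element normalising `P` -/
theorem exists_conj (hc : 7 ≤ c) {a : GL ι F} (hle : ∀ x ∈ P, a * x * a⁻¹ ∈ P) (hge : ∀ x ∈ P, a⁻¹ * x * a ∈ P) :
    ∃ σ : Perm (Fin c), ∀ g : alternatingGroup (Fin c),
      a * (φ.symm g : GL ι F) * a⁻¹ = (φ.symm (MulAut.conjNormal σ g) : GL ι F) := by
  let ca : P ≃* P :=
    { toFun := fun x => ⟨a * x * a⁻¹, hle x x.2⟩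
      invFun := fun x => ⟨a⁻¹ * x * a, hge x x.2⟩
      left_inv := fun x => Subtype.ext (by simp only; group)
      right_inv := fun x => Subtype.ext (by simp only; group)
      map_mul' := fun x y => Subtype.ext (by simp only [Subgroup.coe_mul]; group) }
  obtain ⟨m, rfl⟩ := Nat.exists_eq_add_of_le' (show 2 ≤ c by omega)
  obtain ⟨σ, hσ⟩ := Cfsg.Agent.StandardComponent.AltAut.exists_conj (m := m) (by omega)
    ((φ.symm.trans ca).trans φ : MulAut (alternatingGroup (Fin (m + 2))))
  refine ⟨σ, fun g => ?_⟩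
  have h1 : ((φ.symm.trans ca).trans φ : MulAut (alternatingGroup (Fin (m + 2)))) g = MulAut.conjNormal σ g := by
    apply Subtype.ext
    rw [hσ]
    exact (MulAut.conjNormal_apply (H := alternatingGroup (Fin (m + 2))) σ g).symm
  rw [← h1]
  change _ = ((φ.symm (φ (ca (φ.symm g))) : P) : GL ι F)
  rw [φ.symm_apply_apply]
  rfl

/-- **(F1)** -/
theorem exists_perm (N : NatM (rep φ) w) (hc : 8 ≤ c) {Qf : (ι → F) → F} (hQ : IsNondegenerateQuadraticForm Qf)
    (hH : H ≤ Cfsg.isometryGroup F Qf) (hP : IsResidualCore H P) {a : GL ι F} (ha : a ∈ H) :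
    ∃ (σ : Perm (Fin c)) (e : F), e ^ 2 = 1 ∧ (∀ i j, (a : Matrix ι ι F) *ᵥ w i j = e • w (σ i) (σ j)) ∧
      ∀ g : alternatingGroup (Fin c), a * (φ.symm g : GL ι F) * a⁻¹ = (φ.symm (MulAut.conjNormal σ g) : GL ι F) := by
  obtain ⟨σ, hσ⟩ := exists_conj (φ := φ) (by omega) (hP.normal a ha)
    (fun x hx => by simpa using hP.normal a⁻¹ (H.inv_mem ha) x hx)
  have M := frm N hc hQ (hP.le.trans hH)
  obtain ⟨e, he, he'⟩ := M.semi (a := Matrix.toLin' (a : Matrix ι ι F)) (σ := σ)
    (fun v => by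
      rw [Matrix.toLin'_apply]
      exact mem_isometryGroup.1 (hH ha) v)
    (fun v => ⟨((a⁻¹ : GL ι F) : Matrix ι ι F) *ᵥ v, by
      rw [Matrix.toLin'_apply, Matrix.mulVec_mulVec, ← Units.val_mul, mul_inv_cancel, Units.val_one, Matrix.one_mulVec]⟩)
    (fun g v => by
      rw [Matrix.toLin'_apply, Matrix.toLin'_apply, rep_apply, rep_apply, ← hσ g, Matrix.mulVec_mulVec,
        Matrix.mulVec_mulVec, ← Units.val_mul, ← Units.val_mul, inv_mul_cancel_right])
  exact ⟨σ, e, he, fun i j => by rw [← he' i j, Matrix.toLin'_apply], hσ⟩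

end mat

end Cfsg.Agent.H212.NM
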