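import Cfsg.Agent.H212.NM.Rot
import Cfsg.Agent.H96.C5.Crit

/-!
# S3499: the alternating group on its natural module, characteristic not two

`natp` : `EPT A Γ`, `Model Q (omegaGL Qf)`, `P ≃* Alt(Fin c)` natural, `c ≥ 14` (`natp_five`: `p ≥ 5`, `c ≥ 9`): impossible.
-/

set_option autoImplicit false
set_option linter.unusedSectionVars false

namespace Cfsg.Agent.H212.NM

open Equiv Equiv.Perm QuadraticMap Cfsg.Geo Cfsg.Agent.H964.AltMod Cfsg.Agent.H887.OmegaBridge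
  Cfsg.Agent.ClassicalGeometry.Reflection Cfsg.Agent.H284 Cfsg.Agent.H419.EP
open scoped MatrixGroups Matrix commutatorElement

universe u

section mat

variable {ι : Type} [Fintype ι] [DecidableEq ι] {F : Type u} [Field F] {P : Subgroup (GL ι F)}
variable {c : ℕ} {φ : P ≃* alternatingGroup (Fin c)} {w : Fin c → Fin c → (ι → F)}

theorem ext_w {q : QuadraticForm F (ι → F)} (M : Frm (rep φ) w q) {a b : GL ι F}
    (h : ∀ i j, (a : Matrix ι ι F) *ᵥ w i j = (b : Matrix ι ι F) *ᵥ w i j) : a = b := by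
  apply Units.ext
  apply Matrix.mulVec_injective
  funext u
  have hu : u ∈ Submodule.span F (Set.range fun p : Fin c × Fin c => w p.1 p.2) := by
    rw [M.nat.span]
    exact Submodule.mem_top
  refine Submodule.span_induction (p := fun u _ => (a : Matrix ι ι F) *ᵥ u = (b : Matrix ι ι F) *ᵥ u) ?_ ?_ ?_ ?_ hu
  · rintro _ ⟨p, rfl⟩
    exact h _ _
  · rw [Matrix.mulVec_zero, Matrix.mulVec_zero]
  · intro x y _ _ hx hy
    rw [Matrix.mulVec_add, Matrix.mulVec_add, hx, hy]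
  · intro t x _ hx
    rw [Matrix.mulVec_smul, Matrix.mulVec_smul, hx]

/-- an element of `P` acting on `U` -/
theorem symm_U (N : NatM (rep φ) w) {Δ : Finset (Fin c)} {g : alternatingGroup (Fin c)}
    (hg : ∀ i, (g : Perm (Fin c)) i ∈ Δ ↔ i ∈ Δ) (a : Fin c) :
    ((φ.symm g : GL ι F) : Matrix ι ι F) *ᵥ U w Δ a = U w Δ ((g : Perm (Fin c)) a) := by
  unfold U
  rw [Matrix.mulVec_sum, Finset.sum_congr rfl fun j _ => (rep_apply φ g (w a j)).symm.trans (N.act g a j)]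
  exact Finset.sum_equiv (g : Perm (Fin c)) (fun i => (hg i).symm) (fun i _ => rfl)

variable {Qf : (ι → F) → F} (hQ : IsNondegenerateQuadraticForm Qf) (M : Frm (rep φ) w (qf Qf hQ))
variable {Δ : Finset (Fin c)}
variable (h2 : (2 : F) ≠ 0) {a₁ a₂ a₃ a₄ : Fin c} (m1 : a₁ ∈ Δ) (m2 : a₂ ∈ Δ) (m3 : a₃ ∈ Δ) (m4 : a₄ ∈ Δ)
  (h12 : a₁ ≠ a₂) (h13 : a₁ ≠ a₃) (h14 : a₁ ≠ a₄) (h23 : a₂ ≠ a₃) (h24 : a₂ ≠ a₄) (h34 : a₃ ≠ a₄)
variable (hk0 : (Δ.card : F) ≠ 0) (hk1 : (Δ.card : F) - 1 ≠ 0) (hk3 : (Δ.card : F) - 3 ≠ 0)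

include M h2 m1 m2 h12 hk0 hk1

/-- the rotation on vectors -/
theorem rot_mulVec (v : ι → F) :
    Cfsg.reflectionMatrix (⇑(qf Qf hQ)) (U w Δ a₁) *ᵥ (Cfsg.reflectionMatrix (⇑(qf Qf hQ)) (U w Δ a₂) *ᵥ v) =
      v + ((-(2 / ((Δ.card : F) * (Δ.card - 1)) * M.T Δ a₁ v +
        2 / (Δ.card - 1) * (2 / ((Δ.card : F) * (Δ.card - 1)) * M.T Δ a₂ v))) • U w Δ a₁ +
        (-(2 / ((Δ.card : F) * (Δ.card - 1)) * M.T Δ a₂ v)) • U w Δ a₂) := by
  rw [reflectionMatrix_mulVec, reflectionMatrix_mulVec, M.coef h2 hk0 hk1 m1, M.coef h2 hk0 hk1 m2, M.T_sub, M.T_smul,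
    M.T_U_ne m1 m2 h12]
  have e : 2 / ((Δ.card : F) * (Δ.card - 1)) * (M.T Δ a₁ v - 2 / ((Δ.card : F) * (Δ.card - 1)) * M.T Δ a₂ v * -(Δ.card : F)) =
      2 / ((Δ.card : F) * (Δ.card - 1)) * M.T Δ a₁ v +
        2 / (Δ.card - 1) * (2 / ((Δ.card : F) * (Δ.card - 1)) * M.T Δ a₂ v) := by
    field_simp
    ring
  rw [e, neg_smul, neg_smul]
  abel

include m3 m4 h13 h14 h23 h24 h34 hk3

/-- **the rotation** -/
theorem exists_rot (hPI : P ≤ Cfsg.isometryGroup F Qf) (hc : Δ.card + 3 < c) :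
    ∃ (x : GL ι F) (t : alternatingGroup (Fin c)), x ∈ omegaGL Qf ∧
      (∀ i, i ∉ Δ → (t : Perm (Fin c)) i = i) ∧
      (∀ e e', e ∉ Δ → e' ∉ Δ → (x : Matrix ι ι F) *ᵥ w e e' = w e e') ∧
      (∀ i e p q (s : F), i ∈ Δ → e ∉ Δ → (x : Matrix ι ι F) *ᵥ w i e ≠ s • w p q) ∧
      (∀ e p q (s : F), e ∉ Δ → (x : Matrix ι ι F) *ᵥ ((x : Matrix ι ι F) *ᵥ w a₃ e) ≠ s • w p q) ∧
      (φ.symm t : GL ι F) * x * (φ.symm t : GL ι F)⁻¹ = x⁻¹ ∧
      (∀ g : alternatingGroup (Fin c), (∀ i ∈ Δ, (g : Perm (Fin c)) i = i) →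
        (φ.symm g : GL ι F) * x * (φ.symm g : GL ι F)⁻¹ = x) := by
  have hN := M.nat
  have hc' : Δ.card + 3 < Fintype.card (Fin c) := by rwa [Fintype.card_fin]
  have q1 := M.Q_U_ne h2 hk0 hk1 m1
  have q2 := M.Q_U_ne h2 hk0 hk1 m2
  set r1 := reflIso (qf Qf hQ) (U w Δ a₁) q1 with hr1
  set r2 := reflIso (qf Qf hQ) (U w Δ a₂) q2 with hr2
  -- the permutation `t`
  have ht : swap a₁ a₂ * swap a₃ a₄ ∈ alternatingGroup (Fin c) := by
    rw [mem_alternatingGroup, Perm.sign_mul, sign_swap h12, sign_swap h34]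
    decide
  set t : alternatingGroup (Fin c) := ⟨swap a₁ a₂ * swap a₃ a₄, ht⟩ with htd
  have t1 : (t : Perm (Fin c)) a₁ = a₂ := by
    change swap a₁ a₂ (swap a₃ a₄ a₁) = a₂
    rw [swap_apply_of_ne_of_ne h13 h14, swap_apply_left]
  have t2 : (t : Perm (Fin c)) a₂ = a₁ := by
    change swap a₁ a₂ (swap a₃ a₄ a₂) = a₁
    rw [swap_apply_of_ne_of_ne h23 h24, swap_apply_right]
  have t3 : (t : Perm (Fin c)) a₃ = a₄ := by
    change swap a₁ a₂ (swap a₃ a₄ a₃) = a₄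
    rw [swap_apply_left, swap_apply_of_ne_of_ne (Ne.symm h14) (Ne.symm h24)]
  have t4 : (t : Perm (Fin c)) a₄ = a₃ := by
    change swap a₁ a₂ (swap a₃ a₄ a₄) = a₃
    rw [swap_apply_right, swap_apply_of_ne_of_ne (Ne.symm h13) (Ne.symm h23)]
  have t5 : ∀ i, i ≠ a₁ → i ≠ a₂ → i ≠ a₃ → i ≠ a₄ → (t : Perm (Fin c)) i = i := by
    intro i i1 i2 i3 i4
    change swap a₁ a₂ (swap a₃ a₄ i) = i
    rw [swap_apply_of_ne_of_ne i3 i4, swap_apply_of_ne_of_ne i1 i2]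
  have tΔ : ∀ i, (t : Perm (Fin c)) i ∈ Δ ↔ i ∈ Δ := by
    intro i
    by_cases i1 : i = a₁
    · subst i1; rw [t1]; exact ⟨fun _ => m1, fun _ => m2⟩
    by_cases i2 : i = a₂
    · subst i2; rw [t2]; exact ⟨fun _ => m2, fun _ => m1⟩
    by_cases i3 : i = a₃
    · subst i3; rw [t3]; exact ⟨fun _ => m3, fun _ => m4⟩
    by_cases i4 : i = a₄
    · subst i4; rw [t4]; exact ⟨fun _ => m4, fun _ => m3⟩
    rw [t5 i i1 i2 i3 i4]
  have tout : ∀ i, i ∉ Δ → (t : Perm (Fin c)) i = i := fun i hi =>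
    t5 i (fun h => hi (h ▸ m1)) (fun h => hi (h ▸ m2)) (fun h => hi (h ▸ m3)) (fun h => hi (h ▸ m4))
  -- elements of `P`
  let el : alternatingGroup (Fin c) → Cfsg.isometryGroup F (⇑(qf Qf hQ)) := fun g => ⟨φ.symm g, hPI (φ.symm g).2⟩
  have hconj : ∀ (g : alternatingGroup (Fin c)) (a b : Fin c) (ha : a ∈ Δ) (hb : b ∈ Δ),
      (∀ i, (g : Perm (Fin c)) i ∈ Δ ↔ i ∈ Δ) → (g : Perm (Fin c)) a = b →
      el g * reflIso (qf Qf hQ) (U w Δ a) (M.Q_U_ne h2 hk0 hk1 ha) * (el g)⁻¹ =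
        reflIso (qf Qf hQ) (U w Δ b) (M.Q_U_ne h2 hk0 hk1 hb) := by
    intro g a b ha hb hg hab
    have h3 : ((el g : GL ι F) : Matrix ι ι F) *ᵥ U w Δ a = U w Δ b := by
      rw [← hab]
      exact symm_U hN hg a
    have h4 := conj_reflIso (qf Qf hQ) (U w Δ a) (M.Q_U_ne h2 hk0 hk1 ha) (el g)
      (by rw [h3]; exact M.Q_U_ne h2 hk0 hk1 hb)
    rw [h4]
    congr 1
  have e1 : el t * r1 * (el t)⁻¹ = r2 := hconj t a₁ a₂ m1 m2 tΔ t1
  have e2 : el t * r2 * (el t)⁻¹ = r1 := hconj t a₂ a₁ m2 m1 tΔ t2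
  have i1 : r1⁻¹ = r1 := reflIso_inv _ _ _
  have i2 : r2⁻¹ = r2 := reflIso_inv _ _ _
  have hX : ∀ v : ι → F, (((r1 * r2 : Cfsg.isometryGroup F (⇑(qf Qf hQ))) : GL ι F) : Matrix ι ι F) *ᵥ v =
      v + ((-(2 / ((Δ.card : F) * (Δ.card - 1)) * M.T Δ a₁ v +
        2 / (Δ.card - 1) * (2 / ((Δ.card : F) * (Δ.card - 1)) * M.T Δ a₂ v))) • U w Δ a₁ +
        (-(2 / ((Δ.card : F) * (Δ.card - 1)) * M.T Δ a₂ v)) • U w Δ a₂) := by
    intro v
    rw [coe_mul_mulVec]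
    exact rot_mulVec hQ M h2 m1 m2 h12 hk0 hk1 v
  refine ⟨((r1 * r2 : Cfsg.isometryGroup F (⇑(qf Qf hQ))) : GL ι F), t, ?_, tout, ?_, ?_, ?_, ?_, ?_⟩
  · have h3 : r1 * r2 = ⁅r1, el t⁆ := by
      rw [commutatorElement_def, i1, ← e1]
      group
    rw [h3]
    change _ ∈ omegaGL (⇑(qf Qf hQ))
    exact ⟨⁅r1, el t⁆, Subgroup.commutator_mem_commutator (Subgroup.mem_top _) (Subgroup.mem_top _), rfl⟩
  · intro e e' he he'
    have f1 : e ≠ a₁ := fun h => he (h ▸ m1)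
    have f2 : e ≠ a₂ := fun h => he (h ▸ m2)
    have f3 : e' ≠ a₁ := fun h => he' (h ▸ m1)
    have f4 : e' ≠ a₂ := fun h => he' (h ▸ m2)
    rw [hX, M.T_w, M.T_w, dl_ne f1, dl_ne f2, dl_ne f3, dl_ne f4, ind_notMem he, ind_notMem he']
    simp
  · intro i e p q s hi he hh
    rw [hX] at hh
    exact M.K3 h2 m1 m2 m3 m4 h12 h13 h14 h23 h24 h34 hk0 hk1 hk3 hc' hi he rfl rfl hh.symm
  · intro e p q s he hh
    rw [hX, hX] at hh
    have f1 : e ≠ a₁ := fun h => he (h ▸ m1)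
    have f2 : e ≠ a₂ := fun h => he (h ▸ m2)
    set A := -(2 / ((Δ.card : F) * (Δ.card - 1)) * M.T Δ a₁ (w a₃ e) +
        2 / (Δ.card - 1) * (2 / ((Δ.card : F) * (Δ.card - 1)) * M.T Δ a₂ (w a₃ e))) with hA
    set B := -(2 / ((Δ.card : F) * (Δ.card - 1)) * M.T Δ a₂ (w a₃ e)) with hB
    rw [M.T_add, M.T_add, M.T_add, M.T_add, M.T_smul, M.T_smul, M.T_smul, M.T_smul, M.T_U_self m1, M.T_U_self m2,
      M.T_U_ne m1 m2 h12, M.T_U_ne m2 m1 (Ne.symm h12), M.T_w, M.T_w, dl_ne (Ne.symm h13), dl_ne (Ne.symm h23),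
      dl_ne f1, dl_ne f2, ind_mem m3, ind_notMem he, add_assoc (w a₃ e)] at hh
    rw [M.T_w, M.T_w, dl_ne (Ne.symm h13), dl_ne (Ne.symm h23), dl_ne f1, dl_ne f2, ind_mem m3, ind_notMem he] at hA
    rw [M.T_w, dl_ne (Ne.symm h23), dl_ne f2, ind_mem m3, ind_notMem he] at hB
    have key : ∀ x y x' y' : F, x • U w Δ a₁ + y • U w Δ a₂ + (x' • U w Δ a₁ + y' • U w Δ a₂) =
        (x + x') • U w Δ a₁ + (y + y') • U w Δ a₂ := by
      intro x y x' y'
      rw [add_smul, add_smul]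
      abel
    rw [key] at hh
    obtain ⟨p', hp', h3⟩ := M.K1 hc' m1 m2 he hh.symm m3
    rcases M.K2 h2 m1 m2 m3 m4 h12 h13 h14 h23 h24 h34 hp' m3 h3 with h4 | ⟨_, h4⟩ | ⟨_, h4⟩
    · rw [h4, hN.self] at h3
      obtain ⟨h5, h6⟩ := M.indep h2 m1 m2 m3 m4 h12 h13 h14 h23 h24 h34 hk0 h3.symm
      rw [hA, hB] at h5 h6
      field_simp at h5 h6
      have h7 : (2 : F) * (2 * (Δ.card - 1 + 2)) = 0 := by linear_combination h6
      have h8 : (2 : F) * (2 * ((Δ.card : F) - 1) ^ 2) = 0 := by linear_combination 2 * h7 - h5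
      exact mul_ne_zero h2 (mul_ne_zero h2 (pow_ne_zero 2 hk1)) h8
    · exact h23 h4.symm
    · exact h13 h4.symm
  · have h3 : el t * (r1 * r2) * (el t)⁻¹ = (r1 * r2)⁻¹ := by
      rw [mul_inv_rev, i1, i2]
      calc el t * (r1 * r2) * (el t)⁻¹ = (el t * r1 * (el t)⁻¹) * (el t * r2 * (el t)⁻¹) := by group
        _ = r2 * r1 := by rw [e1, e2]
    exact congrArg Subtype.val h3
  · intro g hg
    have hgΔ : ∀ i, (g : Perm (Fin c)) i ∈ Δ ↔ i ∈ Δ := by
      intro i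
      constructor
      · intro hi
        have h3 := hg _ hi
        have h4 := (g : Perm (Fin c)).injective h3
        rwa [h4] at hi
      · intro hi
        rwa [hg i hi]
    have h3 : el g * (r1 * r2) * (el g)⁻¹ = r1 * r2 := by
      calc el g * (r1 * r2) * (el g)⁻¹ = (el g * r1 * (el g)⁻¹) * (el g * r2 * (el g)⁻¹) := by group
        _ = r1 * r2 := by rw [hconj g a₁ a₁ m1 m1 hgΔ (hg _ m1), hconj g a₂ a₂ m2 m2 hgΔ (hg _ m2)]
    exact congrArg Subtype.val h3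

end mat

section perm

/-- an even permutation of prime order fixing a set pointwise -/
theorem exists_order {c r : ℕ} {Δ : Finset (Fin c)} (hr : r.Prime) (hr2 : r ≠ 2) (hc : r + Δ.card ≤ c) :
    ∃ g : alternatingGroup (Fin c), orderOf (g : Perm (Fin c)) = r ∧ ∀ i ∈ Δ, (g : Perm (Fin c)) i = i := by
  have : Fact r.Prime := ⟨hr⟩
  have h1 : r ∣ Nat.card (Perm {i : Fin c // i ∉ Δ}) := by
    rw [Nat.card_eq_fintype_card, Fintype.card_perm, hr.dvd_factorial, Fintype.card_subtype_compl, Fintype.card_coe,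
      Fintype.card_fin]
    omega
  obtain ⟨y, hy⟩ := exists_prime_orderOf_dvd_card' r h1
  have h2 : orderOf (ofSubtype y) = r := by
    rw [orderOf_injective (ofSubtype (p := fun i : Fin c => i ∉ Δ)) ofSubtype_injective y, hy]
  refine ⟨⟨ofSubtype y, ?_⟩, h2, fun i hi => ?_⟩
  · rw [mem_alternatingGroup]
    have h3 : (ofSubtype y) ^ r = 1 := by rw [← h2, pow_orderOf_eq_one]
    have h4 := congrArg Perm.sign h3
    rw [map_pow, map_one] at h4
    rcases Int.units_eq_one_or (Perm.sign (ofSubtype y)) with h5 | h5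
    · exact h5
    · rw [h5, (hr.odd_of_ne_two hr2).neg_one_pow] at h4
      exact absurd h4 (by decide)
  · exact ofSubtype_apply_of_not_mem y (fun h => h hi)

end perm

section main

variable {T : Type*} [Group T] [Finite T] {A : Subgroup T} {Γ : Subgroup (MulAut T)}

/-- **A_c on its natural module, characteristic not two.** -/
theorem nat_core (h : EPT A Γ) {ι : Type} [Fintype ι] [DecidableEq ι] {F : Type u} [Field F] {Qf : (ι → F) → F}
    (m : Model T (omegaGL Qf)) (hQ : IsNondegenerateQuadraticForm Qf) {P : Subgroup (GL ι F)}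
    (hP : IsResidualCore (m.hat A) P) (h2 : (2 : F) ≠ 0) {c k r : ℕ} (hk : 4 ≤ k) (hk0 : (k : F) ≠ 0)
    (hk1 : (k : F) - 1 ≠ 0) (hk3 : (k : F) - 3 ≠ 0) (hr : r.Prime) (hkr : k < r) (hrc : r + k ≤ c)
    (φ : P ≃* alternatingGroup (Fin c)) {w : Fin c → Fin c → (ι → F)} (N : NatM (rep φ) w) : False := by
  have hHI : m.hat A ≤ Cfsg.isometryGroup F Qf := by
    refine (m.hat_le A).trans ?_
    rw [omegaGL_eq]
    exact Subgroup.commutator_le_self _
  have M := frm N (by omega) hQ (hP.le.trans hHI)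
  -- the set `Δ`
  obtain ⟨Δ, hΔ, hmem⟩ : ∃ Δ : Finset (Fin c), Δ.card = k ∧ ∀ i : Fin c, i ∈ Δ ↔ i.1 < k := by
    refine ⟨(Finset.range k).attachFin fun a ha => ?_, ?_, fun i => ?_⟩
    · have := Finset.mem_range.1 ha
      omega
    · rw [Finset.card_attachFin, Finset.card_range]
    · rw [Finset.mem_attachFin, Finset.mem_range]
  obtain ⟨a₁, e1⟩ : ∃ a : Fin c, a.1 = 0 := ⟨⟨0, by omega⟩, rfl⟩
  obtain ⟨a₂, e2⟩ : ∃ a : Fin c, a.1 = 1 := ⟨⟨1, by omega⟩, rfl⟩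
  obtain ⟨a₃, e3⟩ : ∃ a : Fin c, a.1 = 2 := ⟨⟨2, by omega⟩, rfl⟩
  obtain ⟨a₄, e4⟩ : ∃ a : Fin c, a.1 = 3 := ⟨⟨3, by omega⟩, rfl⟩
  have m1 : a₁ ∈ Δ := (hmem _).2 (by omega)
  have m2 : a₂ ∈ Δ := (hmem _).2 (by omega)
  have m3 : a₃ ∈ Δ := (hmem _).2 (by omega)
  have m4 : a₄ ∈ Δ := (hmem _).2 (by omega)
  have ne : ∀ {a b : Fin c}, a.1 ≠ b.1 → a ≠ b := fun hab e => hab (congrArg Fin.val e)
  obtain ⟨x, t, hxS, tout, hx1, hx2, hx3, hxt, hxg⟩ := exists_rot (φ := φ) hQ M h2 m1 m2 m3 m4 (ne (by omega))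
    (ne (by omega)) (ne (by omega)) (ne (by omega)) (ne (by omega)) (ne (by omega)) (by rwa [hΔ]) (by rwa [hΔ])
    (by rwa [hΔ]) (hP.le.trans hHI) (by omega)
  obtain ⟨e, he, -⟩ := ptD (Δ := Δ) (l := ([] : List (Fin c))) (by simp only [List.length_nil, Fintype.card_fin]; omega)
  have hx : x ∉ m.hat A := by
    intro hxA
    obtain ⟨σ, s, -, hσ, -⟩ := exists_perm N (by omega) hQ hHI hP hxA
    exact hx2 a₁ e _ _ s m1 he (hσ a₁ e)
  -- elements of `Â ∩ Â^x`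
  have hM0 : ∀ a ∈ m.hat A, a ∈ cj x (m.hat A) → ∃ (σ : Perm (Fin c)) (s : F), s ^ 2 = 1 ∧
      (∀ i j, (a : Matrix ι ι F) *ᵥ w i j = s • w (σ i) (σ j)) ∧ ∀ i, σ i ∈ Δ ↔ i ∈ Δ := by
    intro a ha hax
    obtain ⟨σ, s, hs, hσ, -⟩ := exists_perm N (by omega) hQ hHI hP ha
    obtain ⟨τ, u, hu, hτ, -⟩ := exists_perm N (by omega) hQ hHI hP (mem_cj.1 hax)
    refine ⟨σ, s, hs, hσ, ?_⟩
    have hu0 : u ≠ 0 := by
      rintro rfl
      norm_num at hu
    have hs0 : s ≠ 0 := by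
      rintro rfl
      norm_num at hs
    have key : ∀ i j, i ∉ Δ → j ∉ Δ → (x : Matrix ι ι F) *ᵥ w (τ i) (τ j) = (u * s) • w (σ i) (σ j) := by
      intro i j hi hj
      have h3 : (a : Matrix ι ι F) *ᵥ ((x : Matrix ι ι F) *ᵥ w i j) =
          (x : Matrix ι ι F) *ᵥ (((x⁻¹ * a * x : GL ι F) : Matrix ι ι F) *ᵥ w i j) := by
        rw [Matrix.mulVec_mulVec, Matrix.mulVec_mulVec, ← Units.val_mul, ← Units.val_mul]
        congr 2
        group
      rw [hx1 i j hi hj, hσ, hτ, Matrix.mulVec_smul] at h3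
      rw [mul_smul, h3, smul_smul, ← pow_two, hu, one_smul]
    have hi : ∀ i j, i ∉ Δ → j ∉ Δ → τ i ∈ Δ → τ j ∈ Δ := by
      intro i j hi hj h3
      by_contra h4
      exact hx2 _ _ _ _ _ h3 h4 (key i j hi hj)
    -- a point outside mapped outside
    obtain ⟨e0, he0, he0'⟩ : ∃ e0, e0 ∉ Δ ∧ τ e0 ∉ Δ := by
      by_contra hcon
      push Not at hcon
      have h3 : Δᶜ.map τ.toEmbedding ⊆ Δ := by
        intro y hy
        obtain ⟨z, hz, rfl⟩ := Finset.mem_map.1 hy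
        exact hcon z (Finset.mem_compl.1 hz)
      have h4 := Finset.card_le_card h3
      rw [Finset.card_map, Finset.card_compl, Fintype.card_fin, hΔ] at h4
      omega
    have hτo : ∀ i, i ∉ Δ → τ i ∉ Δ := fun i hi1 h3 => he0' (hi i e0 hi1 he0 h3)
    have hσo : ∀ i, i ∉ Δ → σ i ∉ Δ := by
      intro i hi1 h3
      obtain ⟨j, hj, hj'⟩ := ptD (Δ := Δ) (l := [i]) (by simp only [List.length_cons, List.length_nil, Fintype.card_fin]; omega)
      simp only [List.mem_cons, List.not_mem_nil, or_false] at hj'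
      have h4 := key i j hi1 hj
      rw [hx1 _ _ (hτo i hi1) (hτo j hj)] at h4
      obtain ⟨o, ho, ho'⟩ := ptD (Δ := Δ) (l := [τ i, τ j, σ i, σ j])
        (by simp only [List.length_cons, List.length_nil, Fintype.card_fin]; omega)
      simp only [List.mem_cons, List.not_mem_nil, or_false, not_or] at ho'
      have h5 := congrArg (fun v => M.D v (σ i) o) h4
      simp only [M.D_smul, M.D_w, dl_self, dl_ne (Ne.symm ho'.1), dl_ne (Ne.symm ho'.2.1), dl_ne (Ne.symm ho'.2.2.1),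
        dl_ne (Ne.symm ho'.2.2.2), dl_ne (fun e => hτo i hi1 (e ▸ h3) : τ i ≠ σ i),
        dl_ne (fun e => hτo j hj (e ▸ h3) : τ j ≠ σ i), dl_ne (fun e => hj' (σ.injective e) : σ j ≠ σ i)] at h5
      have h6 : u * s = 0 := by linear_combination -h5
      exact mul_ne_zero hu0 hs0 h6
    intro i
    constructor
    · intro h3
      by_contra h4
      exact hσo i h4 h3
    · intro h3
      by_contra h4
      have h5 : Δᶜ.map σ.toEmbedding = Δᶜ := by
        apply Finset.eq_of_subset_of_card_le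
        · intro y hy
          obtain ⟨z, hz, rfl⟩ := Finset.mem_map.1 hy
          exact Finset.mem_compl.2 (hσo z (Finset.mem_compl.1 hz))
        · rw [Finset.card_map]
      have h6 : σ i ∈ Δᶜ.map σ.toEmbedding := by
        rw [h5]
        exact Finset.mem_compl.2 h4
      obtain ⟨z, hz, hz'⟩ := Finset.mem_map.1 h6
      have h7 : z = i := σ.injective hz'
      rw [h7] at hz
      exact Finset.mem_compl.1 hz h3
  -- `N`-th powers commute with `t`
  set n : ℕ := 2 * k.factorial with hn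
  have hcomm : ∀ a ∈ m.hat A, a ∈ cj x (m.hat A) → (φ.symm t : GL ι F) * a ^ n = a ^ n * (φ.symm t : GL ι F) := by
    intro a ha hax
    obtain ⟨σ, s, hs, hσ, hσΔ⟩ := hM0 a ha hax
    have hpow : ∀ (l : ℕ) i j, ((a ^ l : GL ι F) : Matrix ι ι F) *ᵥ w i j = s ^ l • w ((σ ^ l) i) ((σ ^ l) j) := by
      intro l
      induction l with
      | zero =>
        intro i j
        rw [pow_zero, pow_zero, pow_zero, Units.val_one, Matrix.one_mulVec, one_smul]
        rfl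
      | succ l ih =>
        intro i j
        rw [pow_succ', Units.val_mul, ← Matrix.mulVec_mulVec, ih, Matrix.mulVec_smul, hσ, smul_smul, ← pow_succ, pow_succ' σ]
        rfl
    have hsn : s ^ n = 1 := by rw [hn, pow_mul, hs, one_pow]
    have hfix : ∀ i ∈ Δ, (σ ^ n) i = i := by
      intro i hi
      have h3 : (σ.subtypePerm (p := fun i => i ∈ Δ) hσΔ) ^ k.factorial = 1 := by
        have h4 : Fintype.card (Perm {i : Fin c // i ∈ Δ}) = k.factorial := by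
          rw [Fintype.card_perm, Fintype.card_coe, hΔ]
        rw [← h4]
        exact pow_card_eq_one
      rw [subtypePerm_pow] at h3
      have h4 := congrArg (fun f : Perm {i : Fin c // i ∈ Δ} => ((f ⟨i, hi⟩ : {i : Fin c // i ∈ Δ}) : Fin c)) h3
      have h5 : (σ ^ k.factorial) i = i := h4
      rw [hn, mul_comm 2, pow_mul, pow_two, Perm.mul_apply, h5, h5]
    have hout : ∀ i, i ∉ Δ → (σ ^ n) i ∉ Δ := by
      intro i hi h3
      have h4 := hfix _ h3
      exact hi ((σ ^ n).injective h4 ▸ h3)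
    apply ext_w M
    intro i j
    have ht1 : ∀ i, (t : Perm (Fin c)) ((σ ^ n) i) = (σ ^ n) ((t : Perm (Fin c)) i) := by
      intro i
      by_cases hi : i ∈ Δ
      · rw [hfix i hi]
        have h3 : (t : Perm (Fin c)) i ∈ Δ := by
          by_contra h4
          have h5 := (t : Perm (Fin c)).injective (tout _ h4)
          exact h4 (by rw [h5]; exact hi)
        rw [hfix _ h3]
      · rw [tout _ (hout i hi), tout i hi]
    have ht2 : ∀ i j, ((φ.symm t : GL ι F) : Matrix ι ι F) *ᵥ w i j = w ((t : Perm (Fin c)) i) ((t : Perm (Fin c)) j) :=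
      fun i j => (rep_apply φ t (w i j)).symm.trans (N.act t i j)
    rw [Units.val_mul, Units.val_mul, ← Matrix.mulVec_mulVec, ← Matrix.mulVec_mulVec, hpow, ht2, Matrix.mulVec_smul,
      ht2, hpow, ht1, ht1]
  -- an element of order `r`
  obtain ⟨g, hg1, hg2⟩ := exists_order (Δ := Δ) hr (by omega) (by omega)
  have hgA : (φ.symm g : GL ι F) ∈ m.hat A := hP.le (φ.symm g).2
  have hgx : (φ.symm g : GL ι F) ∈ cj x (m.hat A) := by
    rw [mem_cj]
    have h3 := hxg g hg2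
    have h4 : x⁻¹ * (φ.symm g : GL ι F) * x = (φ.symm g : GL ι F) := by
      nth_rewrite 1 [← h3]
      group
    rw [h4]
    exact hgA
  have hgn : (φ.symm g : GL ι F) ^ n ∉ scalars ι F := by
    intro hsc
    obtain ⟨d, hd⟩ := (mem_scalars_iff _).1 hsc
    have hgn1 : (g : Perm (Fin c)) ^ n ≠ 1 := by
      intro h3
      have h4 := orderOf_dvd_of_pow_eq_one h3
      rw [hg1, hn] at h4
      rcases hr.dvd_mul.1 h4 with h5 | h5
      · have := Nat.le_of_dvd (by norm_num) h5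
        omega
      · have := (hr.dvd_factorial).1 h5
        omega
    obtain ⟨i, hi⟩ : ∃ i, ((g : Perm (Fin c)) ^ n) i ≠ i := by
      by_contra hcon
      push Not at hcon
      exact hgn1 (Equiv.ext hcon)
    obtain ⟨j, hj⟩ := pt M.card [i, ((g : Perm (Fin c)) ^ n) i] (by simp)
    simp only [List.mem_cons, List.not_mem_nil, or_false, not_or] at hj
    obtain ⟨o, ho⟩ := pt M.card [i, ((g : Perm (Fin c)) ^ n) i, j, ((g : Perm (Fin c)) ^ n) j] (by simp)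
    simp only [List.mem_cons, List.not_mem_nil, or_false, not_or] at ho
    have h3 : ((φ.symm g : GL ι F) ^ n : GL ι F) = (φ.symm (g ^ n) : GL ι F) := by
      rw [map_pow]
      rfl
    have h4 : (((φ.symm g : GL ι F) ^ n : GL ι F) : Matrix ι ι F) *ᵥ w i j =
        w (((g : Perm (Fin c)) ^ n) i) (((g : Perm (Fin c)) ^ n) j) := by
      rw [h3]
      have h5 := (rep_apply φ (g ^ n) (w i j)).symm.trans (N.act (g ^ n) i j)
      rw [h5]
      rfl
    rw [hd, Matrix.smul_mulVec, Matrix.one_mulVec] at h4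
    have h5 := congrArg (fun v => M.D v (((g : Perm (Fin c)) ^ n) i) o) h4
    simp only [M.D_smul, M.D_w, dl_self, dl_ne (Ne.symm ho.1), dl_ne (Ne.symm ho.2.1), dl_ne (Ne.symm ho.2.2.1),
      dl_ne (Ne.symm ho.2.2.2), dl_ne (Ne.symm hi), dl_ne hj.2,
      dl_ne (fun e => hj.1 (((g : Perm (Fin c)) ^ n).injective e) : ((g : Perm (Fin c)) ^ n) j ≠ ((g : Perm (Fin c)) ^ n) i)] at h5
    exact one_ne_zero (α := F) (by linear_combination -h5)
  -- the characteristic subgroup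
  have hx' : m.π ⟨x, hxS⟩ ∉ A := fun e => hx ((m.mem_hat_iff ⟨x, hxS⟩).2 e)
  have hmap := M0_eq_map (A := A) m hxS
  have htA : (φ.symm t : GL ι F) ∈ m.hat A := hP.le (φ.symm t).2
  obtain ⟨htS, htA'⟩ := m.mem_hat.1 htA
  obtain ⟨hgS, hgA'⟩ := m.mem_hat.1 hgA
  have hcl : ∀ y ∈ A ⊓ cj (m.π ⟨x, hxS⟩) A, m.π ⟨_, htS⟩ * y ^ n = y ^ n * m.π ⟨_, htS⟩ := by
    intro y hy
    rw [hmap] at hy
    obtain ⟨a, ha, rfl⟩ := hy
    have h3 := hcomm a ha.1 ha.2
    rw [← map_pow, ← map_mul, ← map_mul]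
    congr 1
    exact Subtype.ext h3
  have hfin := h.norm_aut hx' (K := Subgroup.closure {z | ∃ y ∈ A ⊓ cj (m.π ⟨x, hxS⟩) A, z = y ^ n}) ?_ ?_ ?_
    htA' ?_
  · have h3 : (φ.symm t : GL ι F) ∈ cj x (m.hat A) := by
      rw [← m.hat_cj A ⟨x, hxS⟩]
      exact m.mem_hat.2 ⟨htS, hfin⟩
    have h4 := mem_cj.1 h3
    have h5 : x⁻¹ * (φ.symm t : GL ι F) * x = x⁻¹ * (x⁻¹ * (φ.symm t : GL ι F)) := by
      nth_rewrite 3 [← hxt]
      group
    rw [h5] at h4
    have h6 : x * x ∈ m.hat A := by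
      have h7 := (m.hat A).mul_mem htA ((m.hat A).inv_mem h4)
      have h8 : (φ.symm t : GL ι F) * (x⁻¹ * (x⁻¹ * (φ.symm t : GL ι F)))⁻¹ = x * x := by
        rw [mul_inv_rev, mul_inv_rev, inv_inv, mul_assoc, mul_inv_cancel_left]
      rwa [h8] at h7
    obtain ⟨σ, s, -, hσ, -⟩ := exists_perm N (by omega) hQ hHI hP h6
    have h7 := hσ a₃ e
    rw [Units.val_mul, ← Matrix.mulVec_mulVec] at h7
    exact hx3 e _ _ s he h7
  · rw [Subgroup.closure_le]
    rintro _ ⟨y, hy, rfl⟩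
    exact (A ⊓ cj (m.π ⟨x, hxS⟩) A).pow_mem hy n
  · intro σ hσ z hz
    refine Subgroup.closure_induction (p := fun z _ => σ z ∈ _) ?_ ?_ ?_ ?_ hz
    · rintro _ ⟨y, hy, rfl⟩
      apply Subgroup.subset_closure
      exact ⟨σ y, hσ y hy, map_pow σ y n⟩
    · rw [map_one]
      exact Subgroup.one_mem _
    · intro a b _ _ ha hb
      rw [map_mul]
      exact Subgroup.mul_mem _ ha hb
    · intro a _ ha
      rw [map_inv]
      exact Subgroup.inv_mem _ ha
  · intro hbot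
    apply hgn
    have h3 : m.π ⟨_, hgS⟩ ∈ A ⊓ cj (m.π ⟨x, hxS⟩) A := by
      rw [hmap]
      exact ⟨⟨_, hgS⟩, ⟨hgA, hgx⟩, rfl⟩
    have h4 : (m.π ⟨_, hgS⟩) ^ n ∈ Subgroup.closure {z | ∃ y ∈ A ⊓ cj (m.π ⟨x, hxS⟩) A, z = y ^ n} :=
      Subgroup.subset_closure ⟨_, h3, rfl⟩
    rw [hbot, Subgroup.mem_bot, ← map_pow, m.ker] at h4
    exact h4
  · have h3 : Subgroup.closure {z | ∃ y ∈ A ⊓ cj (m.π ⟨x, hxS⟩) A, z = y ^ n} ≤
        Subgroup.centralizer {m.π ⟨_, htS⟩} := by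
      rw [Subgroup.closure_le]
      rintro _ ⟨y, hy, rfl⟩
      rw [SetLike.mem_coe, Subgroup.mem_centralizer_singleton_iff]
      exact (hcl y hy).symm
    intro z hz
    have h4 := Subgroup.mem_centralizer_singleton_iff.1 (h3 hz)
    have h5 : m.π ⟨_, htS⟩ * z * (m.π ⟨_, htS⟩)⁻¹ = z := by
      rw [← h4, mul_inv_cancel_right]
    rw [h5]
    exact hz

/-- **S3499-V-NATp** -/
theorem natp {Q : Type} [Group Q] [Finite Q] (_hs : IsSimpleGroup Q) {A : Subgroup Q} {Γ : Subgroup (MulAut Q)}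
    (h : EPT A Γ) {F : Type} [Field F] [Fintype F] {ι : Type} [Fintype ι] [DecidableEq ι] {Qf : (ι → F) → F}
    (m : Model Q (omegaGL Qf)) (hQ : IsNondegenerateQuadraticForm Qf) {P : Subgroup (GL ι F)}
    (hP : IsResidualCore (m.hat A) P) (p : ℕ) [Fact p.Prime] [CharP F p] (_hp : Nat.card F = p) (hp2 : p ≠ 2)
    {c : ℕ} (hc : 14 ≤ c) (φ : P ≃* alternatingGroup (Fin c)) {w : Fin c → Fin c → (ι → F)} (hw : NatM (rep φ) w) :
    False := by
  have hpp : p.Prime := Fact.out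
  have key : ∀ a : ℕ, ¬ p ∣ a → (a : F) ≠ 0 := fun a ha h0 => ha ((CharP.cast_eq_zero_iff F p a).1 h0)
  have hd2 : ¬ p ∣ 2 := fun hd => hp2 ((Nat.prime_dvd_prime_iff_eq hpp Nat.prime_two).1 hd)
  have h2 : (2 : F) ≠ 0 := by
    have := key 2 hd2
    exact_mod_cast this
  by_cases hp3 : p = 3
  · subst hp3
    refine nat_core h m hQ hP h2 (k := 5) (r := 7) (by norm_num) (key 5 (by norm_num)) ?_ ?_ (by norm_num)
      (by norm_num) (by omega) φ hw
    · have h3 := key 4 (by norm_num)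
      intro h4
      apply h3
      push_cast at h4 ⊢
      linear_combination h4
    · intro h4
      apply h2
      push_cast at h4
      linear_combination h4
  · have hd3 : ¬ p ∣ 3 := fun hd => hp3 ((Nat.prime_dvd_prime_iff_eq hpp Nat.prime_three).1 hd)
    refine nat_core h m hQ hP h2 (k := 4) (r := 5) (by norm_num) (key 4 ?_) ?_ ?_ (by norm_num)
      (by norm_num) (by omega) φ hw
    · intro hd
      exact hd2 (hpp.dvd_of_dvd_pow (n := 2) (m := 2) (by simpa using hd))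
    · have h3 := key 3 hd3
      intro h4
      apply h3
      push_cast at h4 ⊢
      linear_combination h4
    · intro h4
      apply one_ne_zero (α := F)
      push_cast at h4
      linear_combination h4

/-- `p ≥ 5`, `c ≥ 9` -/
theorem natp_five {Q : Type*} [Group Q] [Finite Q] {A : Subgroup Q} {Γ : Subgroup (MulAut Q)}
    (h : EPT A Γ) {F : Type u} [Field F] {ι : Type} [Fintype ι] [DecidableEq ι] {Qf : (ι → F) → F}
    (m : Model Q (omegaGL Qf)) (hQ : IsNondegenerateQuadraticForm Qf) {P : Subgroup (GL ι F)}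
    (hP : IsResidualCore (m.hat A) P) (h2 : (2 : F) ≠ 0) (h3 : (3 : F) ≠ 0)
    {c : ℕ} (hc : 9 ≤ c) (φ : P ≃* alternatingGroup (Fin c)) {w : Fin c → Fin c → (ι → F)} (hw : NatM (rep φ) w) :
    False := by
  refine nat_core h m hQ hP h2 (k := 4) (r := 5) (by norm_num) ?_ ?_ ?_ (by norm_num) (by norm_num) (by omega) φ hw
  · intro h4
    push_cast at h4
    exact mul_ne_zero h2 h2 (by linear_combination h4)
  · intro h4
    apply h3
    push_cast at h4
    linear_combination h4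
  · intro h4
    apply one_ne_zero (α := F)
    push_cast at h4
    linear_combination h4

/-- `p = 3` (and `p ≥ 7`), `c ≥ 12` -/
theorem natp_three {Q : Type*} [Group Q] [Finite Q] {A : Subgroup Q} {Γ : Subgroup (MulAut Q)}
    (h : EPT A Γ) {F : Type u} [Field F] {ι : Type} [Fintype ι] [DecidableEq ι] {Qf : (ι → F) → F}
    (m : Model Q (omegaGL Qf)) (hQ : IsNondegenerateQuadraticForm Qf) {P : Subgroup (GL ι F)}
    (hP : IsResidualCore (m.hat A) P) (h2 : (2 : F) ≠ 0) (h5 : (5 : F) ≠ 0)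
    {c : ℕ} (hc : 12 ≤ c) (φ : P ≃* alternatingGroup (Fin c)) {w : Fin c → Fin c → (ι → F)} (hw : NatM (rep φ) w) :
    False := by
  refine nat_core h m hQ hP h2 (k := 5) (r := 7) (by norm_num) ?_ ?_ ?_ (by norm_num) (by norm_num) (by omega) φ hw
  · intro h4
    apply h5
    exact_mod_cast h4
  · intro h4
    push_cast at h4
    exact mul_ne_zero h2 h2 (by linear_combination h4)
  · intro h4
    apply h2
    push_cast at h4
    linear_combination h4

end main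

end Cfsg.Agent.H212.NM
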