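import Cfsg.Agent.H212.NM.Base

/-!
# The rotation `x = r_1 r_2` on the natural module (characteristic not two)

`Δ` a set of `k` points, `U a = ∑ j ∈ Δ, w a j`, `r_a` the reflection in `U a`, `x = r_{a₁} r_{a₂}`.
-/

set_option autoImplicit false
set_option linter.unusedSectionVars false

namespace Cfsg.Agent.H212.NM

open Equiv Equiv.Perm QuadraticMap Cfsg.Agent.H964.AltMod
open scoped MatrixGroups Matrix

variable {F : Type*} [Field F] {V : Type*} [AddCommGroup V] [Module F V] [FiniteDimensional F V]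
variable {α : Type*} [Fintype α] [DecidableEq α]

/-- `k` times the projection of `e_a` -/
def U (w : α → α → V) (Δ : Finset α) (a : α) : V := ∑ j ∈ Δ, w a j

/-- the indicator function -/
def ind (F : Type*) [Field F] (Δ : Finset α) (g : α) : F := if g ∈ Δ then 1 else 0

theorem sum_dl (Δ : Finset α) (g : α) : ∑ j ∈ Δ, dl F j g = ind F Δ g := by
  unfold dl ind
  rw [Finset.sum_ite_eq' Δ g (fun _ => (1 : F))]

theorem sum_dl' (Δ : Finset α) (g : α) : ∑ j ∈ Δ, dl F g j = ind F Δ g := by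
  unfold dl ind
  rw [Finset.sum_ite_eq Δ g (fun _ => (1 : F))]

theorem ind_mem {Δ : Finset α} {g : α} (h : g ∈ Δ) : ind F Δ g = 1 := if_pos h

theorem ind_notMem {Δ : Finset α} {g : α} (h : g ∉ Δ) : ind F Δ g = 0 := if_neg h

/-- a point outside `Δ` and a list -/
theorem ptD {Δ : Finset α} {l : List α} (h : Δ.card + l.length < Fintype.card α) : ∃ x, x ∉ Δ ∧ x ∉ l := by
  by_contra hc
  push Not at hc
  have h1 : (Finset.univ : Finset α) ⊆ Δ ∪ l.toFinset := fun x _ => by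
    rw [Finset.mem_union, List.mem_toFinset]
    by_cases hx : x ∈ Δ
    · exact Or.inl hx
    · exact Or.inr (hc x hx)
  have h2 := Finset.card_le_card h1
  rw [Finset.card_univ] at h2
  have h3 := Finset.card_union_le Δ l.toFinset
  have h4 := List.toFinset_card_le l
  omega

namespace Frm

variable {ρ : Representation F (alternatingGroup α) V} {w : α → α → V} {Q : QuadraticForm F V} (M : Frm ρ w Q)
variable (Δ : Finset α)

include M

theorem D_U (a g h : α) :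
    M.D (U w Δ a) g h = (Δ.card : F) * (dl F a g - dl F a h) - ind F Δ g + ind F Δ h := by
  unfold U
  rw [M.D_sum, Finset.sum_congr rfl fun j _ => M.D_w a j g h, Finset.sum_add_distrib, Finset.sum_sub_distrib, sum_dl,
    sum_dl, Finset.sum_const, nsmul_eq_mul]

/-- `∑ j ∈ Δ, D v a j` -/
noncomputable def T (a : α) (v : V) : F := ∑ j ∈ Δ, M.D v a j

theorem polar_U (a : α) (v : V) : polar Q (U w Δ a) v = M.q0 * M.T Δ a v := by
  unfold U T
  rw [polar_comm, Finset.mul_sum, ← Finset.sum_congr rfl fun j _ => M.polar_eq v a j]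
  classical
  induction Δ using Finset.induction_on with
  | empty => rw [Finset.sum_empty, Finset.sum_empty, polar_zero_right]
  | insert a s ha ih => rw [Finset.sum_insert ha, Finset.sum_insert ha, polar_add_right, ih]

theorem T_add (a : α) (u v : V) : M.T Δ a (u + v) = M.T Δ a u + M.T Δ a v := by
  unfold T
  rw [← Finset.sum_add_distrib]
  exact Finset.sum_congr rfl fun j _ => M.D_add _ _ _ _

theorem T_smul (a : α) (t : F) (v : V) : M.T Δ a (t • v) = t * M.T Δ a v := by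
  unfold T
  rw [Finset.mul_sum]
  exact Finset.sum_congr rfl fun j _ => M.D_smul _ _ _ _

theorem T_sub (a : α) (u v : V) : M.T Δ a (u - v) = M.T Δ a u - M.T Δ a v := by
  unfold T
  rw [← Finset.sum_sub_distrib]
  exact Finset.sum_congr rfl fun j _ => M.D_sub _ _ _ _

theorem T_w (a p q : α) : M.T Δ a (w p q) = (Δ.card : F) * (dl F p a - dl F q a) - ind F Δ p + ind F Δ q := by
  unfold T
  have h1 : ∀ j, M.D (w p q) a j = (dl F p a - dl F q a) - dl F p j + dl F q j := fun j => by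
    rw [M.D_w]
    ring
  rw [Finset.sum_congr rfl fun j _ => h1 j, Finset.sum_add_distrib, Finset.sum_sub_distrib, sum_dl', sum_dl',
    Finset.sum_const, nsmul_eq_mul]

variable {Δ}

theorem T_U_self {a : α} (ha : a ∈ Δ) : M.T Δ a (U w Δ a) = (Δ.card : F) * (Δ.card - 1) := by
  unfold T
  have h1 : ∀ j ∈ Δ, M.D (U w Δ a) a j = (Δ.card : F) - Δ.card * dl F a j := fun j hj => by
    rw [M.D_U, dl_self, ind_mem ha, ind_mem hj]
    ring
  rw [Finset.sum_congr rfl h1, Finset.sum_sub_distrib, ← Finset.mul_sum, sum_dl', ind_mem ha, Finset.sum_const,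
    nsmul_eq_mul]
  ring

theorem T_U_ne {a b : α} (ha : a ∈ Δ) (hb : b ∈ Δ) (hab : a ≠ b) : M.T Δ a (U w Δ b) = -(Δ.card : F) := by
  unfold T
  have h1 : ∀ j ∈ Δ, M.D (U w Δ b) a j = -((Δ.card : F) * dl F b j) := fun j hj => by
    rw [M.D_U, dl_ne (Ne.symm hab), ind_mem ha, ind_mem hj]
    ring
  rw [Finset.sum_congr rfl h1, Finset.sum_neg_distrib, ← Finset.mul_sum, sum_dl', ind_mem hb]
  ring

theorem two_Q_U {a : α} (ha : a ∈ Δ) : 2 * Q (U w Δ a) = M.q0 * ((Δ.card : F) * (Δ.card - 1)) := by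
  rw [← M.T_U_self ha, ← M.polar_U, QuadraticMap.polar_self, two_smul]
  ring

section card

variable (h2 : (2 : F) ≠ 0) (hk0 : (Δ.card : F) ≠ 0) (hk1 : (Δ.card : F) - 1 ≠ 0)

include h2 hk0 hk1

theorem Q_U_ne {a : α} (ha : a ∈ Δ) : Q (U w Δ a) ≠ 0 := by
  intro h
  have h1 := M.two_Q_U ha
  rw [h, mul_zero] at h1
  exact mul_ne_zero M.q0_ne (mul_ne_zero hk0 hk1) h1.symm

/-- the coefficient in the reflection -/
theorem coef {a : α} (ha : a ∈ Δ) (v : V) :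
    (Q (U w Δ a))⁻¹ * polar Q (U w Δ a) v = 2 / ((Δ.card : F) * (Δ.card - 1)) * M.T Δ a v := by
  have h1 := M.two_Q_U ha
  have h3 := M.Q_U_ne h2 hk0 hk1 ha
  have h4 := M.q0_ne
  rw [M.polar_U]
  rw [inv_mul_eq_iff_eq_mul₀ h3, div_mul_eq_mul_div, mul_div_assoc', eq_div_iff (mul_ne_zero hk0 hk1)]
  linear_combination -(M.T Δ a v) * h1

end card

/-- (K1) -/
theorem K1 (hc : Δ.card + 3 < Fintype.card α) {a₁ a₂ : α} (h1 : a₁ ∈ Δ) (h2 : a₂ ∈ Δ) {i e p q : α} (he : e ∉ Δ)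
    {s A B : F} (h : s • w p q = w i e + (A • U w Δ a₁ + B • U w Δ a₂)) (hi : i ∈ Δ) :
    ∃ p' ∈ Δ, w p' i = A • U w Δ a₁ + B • U w Δ a₂ := by
  obtain ⟨o, ho, ho'⟩ := ptD (Δ := Δ) (l := [e, p, q]) (by simpa using hc)
  simp only [List.mem_cons, List.not_mem_nil, or_false, not_or] at ho'
  obtain ⟨hoe, hop, hoq⟩ := ho'
  have ne1 : ∀ {g a : α}, g ∉ Δ → a ∈ Δ → a ≠ g := fun hg ha hag => hg (hag ▸ ha)
  have key : ∀ g, g ∉ Δ → s * (dl F p g - dl F q g) = -dl F e g := by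
    intro g hg
    have h3 := congrArg (fun v => M.D v g o) h
    simp only [M.D_add, M.D_smul, M.D_w, M.D_U, dl_ne (ne1 hg hi), dl_ne (ne1 hg h1), dl_ne (ne1 hg h2),
      dl_ne (ne1 ho hi), dl_ne (ne1 ho h1), dl_ne (ne1 ho h2), ind_notMem hg, ind_notMem ho,
      dl_ne (Ne.symm hoe), dl_ne (Ne.symm hop), dl_ne (Ne.symm hoq)] at h3
    linear_combination h3
  have h3 := key e he
  rw [dl_self] at h3
  have hpq : p ≠ q := by
    rintro rfl
    rw [sub_self, mul_zero] at h3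
    exact one_ne_zero (neg_eq_zero.1 h3.symm)
  have hfin : ∀ p', p' ∈ Δ → s • w p q = w p' e → ∃ p' ∈ Δ, w p' i = A • U w Δ a₁ + B • U w Δ a₂ := by
    intro p' hp' h4
    refine ⟨p', hp', ?_⟩
    rw [h4] at h
    rw [← M.nat.tri p' e i, M.nat.anti i e, h]
    abel
  by_cases hpe : p = e
  · subst hpe
    rw [dl_self, dl_ne (Ne.symm hpq), sub_zero, mul_one] at h3
    refine hfin q ?_ ?_
    · by_contra hq
      have h4 := key q hq
      rw [dl_self, dl_ne hpq, h3] at h4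
      exact one_ne_zero (α := F) (by linear_combination h4)
    · rw [h3, neg_smul, one_smul, ← M.nat.anti]
  · by_cases hqe : q = e
    · subst hqe
      rw [dl_self, dl_ne hpq] at h3
      have h4 : s = 1 := by linear_combination -h3
      refine hfin p ?_ ?_
      · by_contra hp
        have h5 := key p hp
        rw [dl_self, dl_ne (Ne.symm hpq), h4] at h5
        exact one_ne_zero (α := F) (by linear_combination h5)
      · rw [h4, one_smul]
    · rw [dl_ne hpe, dl_ne hqe, sub_self, mul_zero] at h3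
      exact absurd (neg_eq_zero.1 h3.symm) one_ne_zero

/-- coordinates of a combination of `U a₁`, `U a₂` -/
theorem D_comb (A B : F) (a₁ a₂ g h : α) : M.D (A • U w Δ a₁ + B • U w Δ a₂) g h =
    A * ((Δ.card : F) * (dl F a₁ g - dl F a₁ h) - ind F Δ g + ind F Δ h) +
      B * ((Δ.card : F) * (dl F a₂ g - dl F a₂ h) - ind F Δ g + ind F Δ h) := by
  rw [M.D_add, M.D_smul, M.D_smul, M.D_U, M.D_U]

section four

variable (h2 : (2 : F) ≠ 0) {a₁ a₂ a₃ a₄ : α} (m1 : a₁ ∈ Δ) (m2 : a₂ ∈ Δ) (m3 : a₃ ∈ Δ) (m4 : a₄ ∈ Δ)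
  (h12 : a₁ ≠ a₂) (h13 : a₁ ≠ a₃) (h14 : a₁ ≠ a₄) (h23 : a₂ ≠ a₃) (h24 : a₂ ≠ a₄) (h34 : a₃ ≠ a₄)

include h2 m1 m2 m3 m4 h12 h13 h14 h23 h24 h34

/-- (K2) -/
theorem K2 {p i : α} (hp : p ∈ Δ) (hi : i ∈ Δ) {A B : F} (h : w p i = A • U w Δ a₁ + B • U w Δ a₂) :
    p = i ∨ (p = a₁ ∧ i = a₂) ∨ (p = a₂ ∧ i = a₁) := by
  by_cases hpi : p = i
  · exact Or.inl hpi
  right
  have key : ∀ g, g ∈ Δ → g ≠ a₁ → g ≠ a₂ → ∀ h', h' ∈ Δ → h' ≠ a₁ → h' ≠ a₂ →
      dl F p g - dl F p h' - dl F i g + dl F i h' = 0 := by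
    intro g hg hg1 hg2 h' hh hh1 hh2
    have h3 := congrArg (fun v => M.D v g h') h
    rw [M.D_comb, M.D_w, dl_ne (Ne.symm hg1), dl_ne (Ne.symm hg2), dl_ne (Ne.symm hh1), dl_ne (Ne.symm hh2),
      ind_mem hg, ind_mem hh] at h3
    linear_combination h3
  -- another point
  have hex : ∀ g, g ≠ a₁ → g ≠ a₂ → ∃ h' ∈ Δ, h' ≠ a₁ ∧ h' ≠ a₂ ∧ h' ≠ g := by
    intro g _ _
    by_cases hg : g = a₃
    · exact ⟨a₄, m4, Ne.symm h14, Ne.symm h24, fun e => h34 (hg ▸ e.symm)⟩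
    · exact ⟨a₃, m3, Ne.symm h13, Ne.symm h23, fun e => hg e.symm⟩
  have hp' : p = a₁ ∨ p = a₂ := by
    by_contra hc
    push Not at hc
    obtain ⟨h', hh, hh1, hh2, hh3⟩ := hex p hc.1 hc.2
    have h3 := key p hp hc.1 hc.2 h' hh hh1 hh2
    rw [dl_self, dl_ne (Ne.symm hh3), dl_ne (Ne.symm hpi)] at h3
    unfold dl at h3
    split_ifs at h3
    · exact h2 (by linear_combination h3)
    · exact one_ne_zero (α := F) (by linear_combination h3)
  have hi' : i = a₁ ∨ i = a₂ := by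
    by_contra hc
    push Not at hc
    obtain ⟨h', hh, hh1, hh2, hh3⟩ := hex i hc.1 hc.2
    have h3 := key i hi hc.1 hc.2 h' hh hh1 hh2
    rw [dl_self, dl_ne (Ne.symm hh3), dl_ne hpi] at h3
    unfold dl at h3
    split_ifs at h3
    · exact h2 (by linear_combination -h3)
    · exact one_ne_zero (α := F) (by linear_combination -h3)
  rcases hp' with rfl | rfl <;> rcases hi' with rfl | rfl
  · exact absurd rfl hpi
  · exact Or.inl ⟨rfl, rfl⟩
  · exact Or.inr ⟨rfl, rfl⟩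
  · exact absurd rfl hpi

variable (hk0 : (Δ.card : F) ≠ 0)
include hk0

/-- `U a₁`, `U a₂` are independent -/
theorem indep {A B : F} (h : A • U w Δ a₁ + B • U w Δ a₂ = 0) : A = 0 ∧ B = 0 := by
  have h3 := congrArg (fun v => M.D v a₁ a₃) h
  have h4 := congrArg (fun v => M.D v a₂ a₃) h
  rw [M.D_comb, M.D_zero, dl_self, dl_ne h13, dl_ne (Ne.symm h12), dl_ne h23, ind_mem m1, ind_mem m3] at h3
  rw [M.D_comb, M.D_zero, dl_self, dl_ne h12, dl_ne h13, dl_ne h23, ind_mem m2, ind_mem m3] at h4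
  have h5 : A * (Δ.card : F) = 0 := by linear_combination h3
  have h6 : B * (Δ.card : F) = 0 := by linear_combination h4
  exact ⟨(mul_eq_zero.1 h5).resolve_right hk0, (mul_eq_zero.1 h6).resolve_right hk0⟩

theorem indep' {A B A' B' : F} (h : A • U w Δ a₁ + B • U w Δ a₂ = A' • U w Δ a₁ + B' • U w Δ a₂) :
    A = A' ∧ B = B' := by
  have h3 : (A - A') • U w Δ a₁ + (B - B') • U w Δ a₂ = 0 := by
    rw [sub_smul, sub_smul]
    have : A • U w Δ a₁ - A' • U w Δ a₁ + (B • U w Δ a₂ - B' • U w Δ a₂) =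
      (A • U w Δ a₁ + B • U w Δ a₂) - (A' • U w Δ a₁ + B' • U w Δ a₂) := by abel
    rw [this, h, sub_self]
  obtain ⟨h4, h5⟩ := M.indep h2 m1 m2 m3 m4 h12 h13 h14 h23 h24 h34 hk0 h3
  exact ⟨sub_eq_zero.1 h4, sub_eq_zero.1 h5⟩

/-- `k w_{21} = U a₂ - U a₁` -/
theorem w_eq : w a₂ a₁ = (-(Δ.card : F)⁻¹) • U w Δ a₁ + (Δ.card : F)⁻¹ • U w Δ a₂ := by
  have h3 : U w Δ a₂ - U w Δ a₁ = (Δ.card : F) • w a₂ a₁ := by
    unfold U
    rw [← Finset.sum_sub_distrib]
    have h4 : ∀ j, w a₂ j - w a₁ j = w a₂ a₁ := fun j => by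
      rw [← M.nat.tri a₂ j a₁, M.nat.anti a₁ j, sub_eq_add_neg]
    rw [Finset.sum_congr rfl fun j _ => h4 j, Finset.sum_const, Nat.cast_smul_eq_nsmul]
  have h5 : (-(Δ.card : F)⁻¹) • U w Δ a₁ + (Δ.card : F)⁻¹ • U w Δ a₂ = (Δ.card : F)⁻¹ • (U w Δ a₂ - U w Δ a₁) := by
    rw [smul_sub, neg_smul]
    abel
  rw [h5, h3, smul_smul, inv_mul_cancel₀ hk0, one_smul]

variable (hk1 : (Δ.card : F) - 1 ≠ 0) (hk3 : (Δ.card : F) - 3 ≠ 0)
include hk1 hk3

/-- (K3) -/
theorem K3 (hc : Δ.card + 3 < Fintype.card α) {i e p q : α} (hi : i ∈ Δ) (he : e ∉ Δ) {s A B : F}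
    (hA : A = -(2 / ((Δ.card : F) * (Δ.card - 1)) * M.T Δ a₁ (w i e) +
      2 / (Δ.card - 1) * (2 / ((Δ.card : F) * (Δ.card - 1)) * M.T Δ a₂ (w i e))))
    (hB : B = -(2 / ((Δ.card : F) * (Δ.card - 1)) * M.T Δ a₂ (w i e)))
    (h : s • w p q = w i e + (A • U w Δ a₁ + B • U w Δ a₂)) : False := by
  obtain ⟨p', hp', h3⟩ := M.K1 hc m1 m2 he h hi
  have h5 : e ≠ a₁ := fun h => he (h ▸ m1)
  have h6 : e ≠ a₂ := fun h => he (h ▸ m2)
  rw [M.T_w, M.T_w, dl_ne h5, dl_ne h6, ind_mem hi, ind_notMem he] at hA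
  rw [M.T_w, dl_ne h6, ind_mem hi, ind_notMem he] at hB
  have hAB : ∀ {t : F}, p' = i → t ≠ 0 → (A = 0 → B = 0 → t = 0) → False := by
    intro t hpi ht hAB
    rw [hpi, M.nat.self] at h3
    obtain ⟨h7, h8⟩ := M.indep h2 m1 m2 m3 m4 h12 h13 h14 h23 h24 h34 hk0 h3.symm
    exact ht (hAB h7 h8)
  by_cases hi1 : i = a₁
  · subst hi1
    rw [dl_self, dl_ne h12] at hA
    rw [dl_ne h12] at hB
    rcases M.K2 h2 m1 m2 m3 m4 h12 h13 h14 h23 h24 h34 hp' m1 h3 with h7 | ⟨_, h7⟩ | ⟨h7, _⟩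
    · refine hAB h7 h2 fun _ h9 => ?_
      rw [h9] at hB
      field_simp at hB
      linear_combination -hB
    · exact h12 h7
    · subst h7
      rw [M.w_eq h2 m1 m2 m3 m4 h12 h13 h14 h23 h24 h34 hk0] at h3
      obtain ⟨_, h8⟩ := M.indep' h2 m1 m2 m3 m4 h12 h13 h14 h23 h24 h34 hk0 h3
      rw [← h8] at hB
      apply hk3
      field_simp at hB
      linear_combination hB
  by_cases hi2 : i = a₂
  · subst hi2
    rw [dl_self, dl_ne (Ne.symm h12)] at hA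
    rw [dl_self] at hB
    rcases M.K2 h2 m1 m2 m3 m4 h12 h13 h14 h23 h24 h34 hp' m2 h3 with h7 | ⟨h7, _⟩ | ⟨_, h7⟩
    · refine hAB h7 h2 fun _ h9 => ?_
      rw [h9] at hB
      field_simp at hB
      have h10 : (2 : F) * (Δ.card - 1) = 0 := by linear_combination hB
      exact (mul_eq_zero.1 h10).resolve_right hk1
    · subst h7
      rw [M.nat.anti, M.w_eq h2 m1 m2 m3 m4 h12 h13 h14 h23 h24 h34 hk0] at h3
      have h9 : (Δ.card : F)⁻¹ • U w Δ p' + (-(Δ.card : F)⁻¹) • U w Δ i = A • U w Δ p' + B • U w Δ i := by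
        rw [← h3, neg_add, ← neg_smul, ← neg_smul, neg_neg]
      obtain ⟨_, h8⟩ := M.indep' h2 m1 m2 m3 m4 h12 h13 h14 h23 h24 h34 hk0 h9
      rw [← h8] at hB
      field_simp at hB
      exact hk1 (by linear_combination hB)
    · exact h12 h7.symm
  · rw [dl_ne hi1, dl_ne hi2] at hA
    rw [dl_ne hi2] at hB
    rcases M.K2 h2 m1 m2 m3 m4 h12 h13 h14 h23 h24 h34 hp' hi h3 with h7 | ⟨_, h7⟩ | ⟨_, h7⟩
    · refine hAB h7 h2 fun _ h9 => ?_
      rw [h9] at hB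
      field_simp at hB
      linear_combination -hB
    · exact hi2 h7
    · exact hi1 h7

end four

end Frm

end Cfsg.Agent.H212.NM
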